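import Cfsg.Agent.H5.ResidEnd
import Cfsg.Agent.H5.MaxOf
import Cfsg.Agent.H1.SpSix
import Cfsg.Agent.H4.U43.Row
import Cfsg.Agent.H4.TwD4.Row
import Cfsg.Agent.H4.RowTits
import Cfsg.Agent.LieClassical.FieldTransfer

/-!
# The open rows of `H5.Resid` (helper4)
-/

set_option autoImplicit false

namespace Cfsg.Agent.H4.HypAll

open Subgroup Cfsg Cfsg.Agent.H4.LfTrans Cfsg.Agent.H5.Resid Cfsg.Agent.H5

universe u

variable {G : Type u} [Group G] [Finite G]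

theorem exists_zmod_two {F : Type*} [Field F] [Fintype F] (hF : Fintype.card F = 2) : Nonempty (F ≃+* ZMod 2) :=
  ⟨(ZMod.ringEquivOfPrime F Nat.prime_two hF).symm⟩

theorem sp62 (h : Sp62 G) : LfRow G (fun L => IsAlt 6 L ∨ IsL3 L) := by
  obtain ⟨F, _, _, hF, ⟨e⟩⟩ := h
  obtain ⟨f⟩ := exists_zmod_two hF
  have hchar : CharP F 2 := (RingHom.charP_iff (f : F →+* ZMod 2) f.injective 2).2 inferInstance
  have hrow := H1.SpSix.row_spSix hF e
  have h1 : ∀ (T : Sylow 2 G), ∀ L ∈ calL (T : Subgroup G), (T : Subgroup G) ≤ normalizer (L : Set G) ∧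
      (IsAlt 6 L ∨ IsL3 L) := by
    intro T L hL
    obtain ⟨h1, b, ⟨g⟩⟩ := hrow T L hL
    refine ⟨h1, ?_⟩
    cases b
    · exact Or.inl ⟨g⟩
    · exact Or.inr ⟨MulEquiv.trans g (Cfsg.Agent.LieClassical.FieldTransfer.pslCongr (ι := Fin 3) f)⟩
  have hc : ∀ L : Subgroup G, (IsAlt 6 L ∨ IsL3 L) → Nat.card (↥L ⧸ pCore 2 ↥L) = 360 ∨ Nat.card (↥L ⧸ pCore 2 ↥L) = 168 := by
    rintro L (h | h)
    · obtain ⟨g⟩ := h
      left; rw [Nat.card_congr g.toEquiv, ResidEnd.card_alt_six]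
    · obtain ⟨g⟩ := h
      right; rw [Nat.card_congr g.toEquiv, ResidEnd.card_l3]
  intro T L hL
  obtain ⟨h2, h3⟩ := h1 T L hL.1
  refine ⟨h2, ⟨MaxOf.mem_calLMax T hL.1 h2 fun K hK _ hd => ?_, hL.2⟩, h3⟩
  rcases hc L h3 with h4 | h4 <;> rcases hc K (h1 T K hK).2 with h5 | h5 <;> rw [h4, h5] at hd ⊢
  · exact absurd hd (by norm_num)
  · exact absurd hd (by norm_num)

theorem u43 (hFT : Top.FT.{0}) (hE : IsOfEvenCharacteristic G) (h : U43 G) : LfRow G (IsAlt 6) := by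
  obtain ⟨F, _, _, hF, ⟨e⟩⟩ := h
  intro T L hL
  obtain ⟨h1, h2, h3, -⟩ := H4.U43.u43 hE hFT hF e T L hL
  exact ⟨h1, h2, h3⟩

theorem d42 (hE : IsOfEvenCharacteristic G) (h : D42 G) : NoLf G := by
  obtain ⟨K, _, _, hK, ⟨e⟩⟩ := h
  exact H4.TwD4.noLf hE hK e

/-- **all the open rows** -/
theorem hyp (hFT : Top.FT.{0}) (hE : IsOfEvenCharacteristic G) : Hyp G where
  sp62 := sp62
  u43 := u43 hFT hE
  d42 := d42 hE
  tits := H4.RowTits.tits

/-- **every group of the residual case on the list** -/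
theorem row (hFT0 : Top.FT.{0}) (hFT : Top.FT.{u}) (hE : IsOfEvenCharacteristic G) (hl : IsOnQTKEList G)
    (hR : InResidualCase G) : LfRow G Conc :=
  main hFT hE hl hR (hyp hFT0 hE)

end Cfsg.Agent.H4.HypAll
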