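import Cfsg.Agent.H4.Hyp
import Cfsg.Agent.H5.Small
import Cfsg.Agent.S0280

/-!
# S1838, S1839, S1840 (helper4)
-/

set_option autoImplicit false

namespace Cfsg.Agent.H4.ResidOwn

open Subgroup Cfsg Cfsg.Agent.H4.LfTrans Cfsg.Agent.H5.Resid Cfsg.Agent.H5

universe u

variable {G : Type u} [Group G] [Finite G]

/-- the possible orders -/
theorem card_of_conc {L : Subgroup G} (h : Conc L) : Nat.card (↥L ⧸ pCore 2 ↥L) = 360 ∨
    Nat.card (↥L ⧸ pCore 2 ↥L) = 60 ∨ Nat.card (↥L ⧸ pCore 2 ↥L) = 168 := by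
  rcases h with ⟨⟨e⟩, -⟩ | ⟨⟨e⟩, -⟩ | ⟨⟨e⟩, -⟩
  · left; rw [Nat.card_congr e.toEquiv, ResidEnd.card_alt_six]
  · right; left; rw [Nat.card_congr e.toEquiv, ResidEnd.card_alt_five]
  · right; right; rw [Nat.card_congr e.toEquiv, ResidEnd.card_l3]

theorem card_u33 {F : Type*} [Field F] [Fintype F] (hF : Fintype.card F = 9) : Nat.card (Cfsg.PSU 3 F 3) = 6048 := by
  have h := S0280.result (F := F) (q := 3) (by rw [hF]; norm_num) 3 (by norm_num)
  norm_num [Finset.prod_range_succ, Nat.even_iff] at h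
  omega

theorem simple_of_conc {L : Subgroup G} (h : Conc L) : IsSimpleGroup (↥L ⧸ pCore 2 ↥L) := by
  rcases h with ⟨⟨e⟩, -⟩ | ⟨⟨e⟩, -⟩ | ⟨⟨e⟩, -⟩
  · have : IsSimpleGroup (alternatingGroup (Fin 6)) := alternatingGroup.isSimpleGroup (by simp)
    exact e.isSimpleGroup
  · have : IsSimpleGroup (alternatingGroup (Fin 5)) := alternatingGroup.isSimpleGroup (by simp)
    exact e.isSimpleGroup
  · have : Finite (Matrix.ProjectiveSpecialLinearGroup (Fin 3) (ZMod 2)) := Finite.of_equiv _ e.toEquiv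
    have : IsSimpleGroup (Matrix.ProjectiveSpecialLinearGroup (Fin 3) (ZMod 2)) := S0249.result 3 le_rfl
    exact e.isSimpleGroup

theorem not_solvable_of_card {X : Type*} [Group X] [Finite X] [IsSimpleGroup X] (hp : ¬ (Nat.card X).Prime) :
    ¬ Group.IsSolvable X := by
  intro h
  have h1 : ∀ a b : X, a * b = b * a := IsSimpleGroup.comm_iff_isSolvable.2 h
  let _ : CommGroup X := { mul_comm := h1 }
  exact hp IsSimpleGroup.prime_card

theorem s1838 (hFT0 : Top.FT.{0}) (hFT : Top.FT.{u}) (hE : IsOfEvenCharacteristic G) (hl : IsOnQTKEList G)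
    (hR : InResidualCase G) (T : Sylow 2 G) (L : Subgroup G) (hL : L ∈ calLf (T : Subgroup G)) :
    IsQuasisimple (↥L ⧸ pCore 2 ↥L) := by
  obtain ⟨-, -, h⟩ := HypAll.row hFT0 hFT hE hl hR T L hL
  have hs := simple_of_conc h
  refine Small.quasi_of_simple (not_solvable_of_card ?_)
  rcases card_of_conc h with h1 | h1 | h1 <;> rw [h1] <;> norm_num

theorem s1839 (hFT0 : Top.FT.{0}) (hFT : Top.FT.{u}) (hE : IsOfEvenCharacteristic G) (hl : IsOnQTKEList G)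
    (hR : InResidualCase G) (T : Sylow 2 G) (L : Subgroup G) (hL : L ∈ calLf (T : Subgroup G)) :
    ¬ (∃ (F : Type) (_ : Field F) (_ : Fintype F), Fintype.card F = 9 ∧ Nonempty ((↥L ⧸ pCore 2 ↥L) ≃* PSU 3 F 3)) := by
  rintro ⟨F, _, _, hF, ⟨e⟩⟩
  obtain ⟨-, -, h⟩ := HypAll.row hFT0 hFT hE hl hR T L hL
  have h1 := (Nat.card_congr e.toEquiv).trans (card_u33 hF)
  rcases card_of_conc h with h2 | h2 | h2 <;> rw [h1] at h2 <;> norm_num at h2

theorem s1840 (hFT0 : Top.FT.{0}) (hFT : Top.FT.{u}) (hE : IsOfEvenCharacteristic G) (hl : IsOnQTKEList G)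
    (hR : InResidualCase G) (T : Sylow 2 G) (L : Subgroup G) (hL : L ∈ calLf (T : Subgroup G))
    (h5 : Nonempty ((↥L ⧸ Cfsg.pCore 2 ↥L) ≃* ↥(alternatingGroup (Fin 5)))) :
    (∃ (F : Type) (_ : Field F) (_ : Fintype F), Fintype.card F = 4 ∧ Nonempty (G ≃* Cfsg.PSU 4 F 2)) ∨
      (∃ (F : Type) (_ : Field F) (_ : Fintype F), Fintype.card F = 3 ∧
        Nonempty (G ≃* Matrix.ProjectiveSpecialLinearGroup (Fin 4) F)) := by
  obtain ⟨-, -, h⟩ := HypAll.row hFT0 hFT hE hl hR T L hL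
  obtain ⟨e⟩ := h5
  have h1 := (Nat.card_congr e.toEquiv).trans ResidEnd.card_alt_five
  rcases h with ⟨⟨f⟩, -⟩ | ⟨-, h⟩ | ⟨⟨f⟩, -⟩
  · rw [Nat.card_congr f.toEquiv, ResidEnd.card_alt_six] at h1
    norm_num at h1
  · exact h
  · rw [Nat.card_congr f.toEquiv, ResidEnd.card_l3] at h1
    norm_num at h1

end Cfsg.Agent.H4.ResidOwn
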